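import Mathlib
import Cfsg.Agent.Lib.OneBlk.Cstr
import Cfsg.Agent.Lib.ChTab.Rat
import Cfsg.Agent.Lib.ChTab.Int

/-!
`M22` has no character of 2-defect zero, hence a single 2-block.
-/

set_option autoImplicit false

namespace CfsgLib.OneBlk

open Cfsg CfsgLib.Char CfsgLib.M24E CfsgLib.Golay CfsgLib.Tuan CfsgLib.ChTab Subgroup Finset

noncomputable def is22 (q : ℕ) : Bool := and (isM q) (and (Nat.beq (ap q 23) 23) (Nat.beq (ap q 0) 0))

theorem is22_isM {q : ℕ} (h : is22 q = true) : isM q = true := (Bool.and_eq_true_iff.1 h).1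

theorem mem22 {q : ℕ} (h : is22 q = true) : pm q ∈ Spor.M22 := by
  simp only [is22, Bool.and_eq_true, beq_iff'] at h
  exact Mathieu.mem_M22.2 ⟨pm_mem h.1, ((pm_rp h.1).pt_eq_iff (by norm_num) (by norm_num)).2 h.2.1,
    ((pm_rp h.1).pt_eq_iff (by norm_num) (by norm_num)).2 h.2.2⟩

def qx : ℕ := 0xb8db49298e7a4cb8ce01454a4158e0
def qy : ℕ := 0xb8a1492ab1231cd34d683a5e5b0c20
def qr : List ℕ := [0xbdab49ca307b9ac5a928398a418820, 0xbccd410ead439308d98f2ac2792880,
  0xbca141892e436a65d9857c4e19a880, 0xbdab49ca307b9ac5a928398a418820, 0xb9676405ab1d54989dcc84a82790c0,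
  0xb9dd429175530d06bd361c65340440, 0xb8d9494dae7c2353292742c85b0820, 0xba214214cc5556e8bd23b367238440,
  0xbbd360a1551adb391dd064454290c0]

theorem is22_x : is22 qx = true := by decide +kernel
theorem is22_y : is22 qy = true := by decide +kernel

noncomputable def xx : Spor.M22 := ⟨pm qx, mem22 is22_x⟩
noncomputable def yy : Spor.M22 := ⟨pm qy, mem22 is22_y⟩

theorem conj_xy (i : ℕ) (hi : i < 3) (j : ℕ) (hj : j < 3) (h : i ≠ 0 ∨ j ≠ 0) : IsConj xx (xx ^ i * yy ^ j) := by
  have key : ∀ i < 3, ∀ j < 3, i ≠ 0 ∨ j ≠ 0 → is22 (qr.getD (3 * i + j) 0) = true ∧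
      intw (ap (qr.getD (3 * i + j) 0)) (ap qx) (fun t => itF (ap qx) i (itF (ap qy) j t)) = true := by decide +kernel
  obtain ⟨h1, h2⟩ := key i hi j hj h
  have hx := pm_rp (is22_isM is22_x)
  exact isConj_iff.2 ⟨⟨_, mem22 h1⟩, Subtype.ext (mul_inv_eq_of_eq_mul
    (((pm_rp (is22_isM h1)).intw_iff hx ((hx.pow i).mul ((pm_rp (is22_isM is22_y)).pow j))).1 h2))⟩

theorem ord_xx : orderOf xx = 3 := by
  rw [← Subgroup.orderOf_coe]
  exact orderOf_pm Nat.prime_three (is22_isM is22_x) (by decide +kernel) (by decide +kernel)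

theorem card_cx : Nat.card (centralizer ({xx} : Set Spor.M22)) = 36 := by
  have hB : chkB 0x5ca66a56cc728454be0d20e2838417 0x4653ad8a953d10bb9641d18733441 = true := by decide +kernel
  have hx := pm_rp (is22_isM is22_x)
  have e : Nat.card (centralizer ({xx} : Set Spor.M22)) = Nat.card {g : P24 // g ∈ M24 ∧
      (g (pt 23) = pt 23 ∧ g (pt 0) = pt 0 ∧ g * pm qx = pm qx * g)} :=
    Nat.card_congr
      { toFun := fun g => ⟨g.1.1, (Mathieu.mem_M22.1 g.1.2).1, (Mathieu.mem_M22.1 g.1.2).2.1, (Mathieu.mem_M22.1 g.1.2).2.2,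
          congrArg Subtype.val (mem_centralizer_singleton_iff.1 g.2)⟩
        invFun := fun g => ⟨⟨g.1, Mathieu.mem_M22.2 ⟨g.2.1, g.2.2.1, g.2.2.2.1⟩⟩,
          mem_centralizer_singleton_iff.2 (Subtype.ext g.2.2.2.2)⟩
        left_inv := fun _ => rfl
        right_inv := fun _ => rfl }
  rw [e, card_of_search hB (((sound_okPt (chkB_lt hB) (by norm_num) (by norm_num) fun _ _ h => h.1).and
      (sound_okPt (chkB_lt hB) (by norm_num) (by norm_num) fun _ _ h => h.2.1)).and
      (sound_okI (chkB_lt hB) hx hx fun _ _ h => h.2.2))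
    (t := fun φ => and (Nat.beq (φ 23) 23) (and (Nat.beq (φ 0) 0) (intw φ (ap qx) (ap qx)))) fun g _ φ hφ => by
      rw [Bool.and_eq_true, Bool.and_eq_true, beq_iff', beq_iff', hφ.intw_iff hx hx,
        hφ.pt_eq_iff (by norm_num) (by norm_num), hφ.pt_eq_iff (by norm_num) (by norm_num)]]
  decide +kernel

theorem defM22 (χ : IrrCharacter Spor.M22) : ¬ 128 ∣ dg χ := by
  intro hd
  have hx := pm_rp (is22_isM is22_x)
  have hy := pm_rp (is22_isM is22_y)
  have hr : Ratl xx := fun k hk => by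
    rw [← pow_mod_orderOf, ord_xx]
    rw [ord_xx] at hk
    have := conj_xy (k % 3) (Nat.mod_lt _ (by norm_num)) 0 (by norm_num) (Or.inl fun h =>
      absurd (hk.symm.eq_one_of_dvd (Nat.dvd_of_mod_eq_zero h)) (by norm_num))
    rwa [pow_zero, mul_one] at this
  have ha := (cv_cast hr χ).symm
  set a := cv xx χ
  obtain ⟨n, hn⟩ := sum_nine (Char.irr_isCharacter χ) (x := xx) (y := yy) (ord_xx ▸ pow_orderOf_eq_one xx)
    (Subtype.ext ((hy.powId_iff 3).1 (by decide +kernel))) (Subtype.ext ((hx.intw_iff hy hy).1 (by decide +kernel)))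
  have v : ∀ i < 3, ∀ j < 3, i ≠ 0 ∨ j ≠ 0 → (χ : Spor.M22 → ℂ) (xx ^ i * yy ^ j) = a := fun i hi j hj h => by
    rw [← val_of_isConj χ (conj_xy i hi j hj h), ha]
  simp only [sum_range_succ, sum_range_zero] at hn
  rw [v 0 (by decide) 1 (by decide) (by decide), v 0 (by decide) 2 (by decide) (by decide),
    v 1 (by decide) 0 (by decide) (by decide), v 1 (by decide) 1 (by decide) (by decide),
    v 1 (by decide) 2 (by decide) (by decide), v 2 (by decide) 0 (by decide) (by decide),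
    v 2 (by decide) 1 (by decide) (by decide), v 2 (by decide) 2 (by decide) (by decide), pow_zero, pow_zero, mul_one,
    ← dg_cast] at hn
  have h9 : (dg χ : ℤ) + 8 * a = 9 * n := by
    have : ((dg χ : ℤ) : ℂ) + 8 * a = 9 * (n : ℤ) := by push_cast; linear_combination hn
    exact_mod_cast this
  have hi : (centralizer ({xx} : Set Spor.M22)).index = 12320 := by
    have := (centralizer ({xx} : Set Spor.M22)).index_mul_card
    rw [card_cx, Mathieu.card_M22] at this
    omega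
  have h1 := dvd_of_val ha
  rw [hi] at h1
  have h2 : a * a ≤ 36 := by
    have := sum_cv_sq hr
    rw [show cC xx = 36 from card_cx] at this
    exact (single_le_sum (f := fun χ => cv xx χ * cv xx χ) (fun _ _ => mul_self_nonneg _) (mem_univ χ)).trans this.le
  have h3 : -6 ≤ a ∧ a ≤ 6 := by constructor <;> nlinarith
  have h4 := dg_dvd χ
  have h5 := dg_sq_le χ
  have h6 := dg_pos χ
  rw [Mathieu.card_M22] at h4 h5
  obtain ⟨k, hk⟩ := hd
  rw [hk] at h9 h1 h4 h5 h6
  have h7 : k < 6 := by nlinarith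
  interval_cases k <;> omega

theorem oneM22 {M : Ideal AlgInt} (hM : IsPModular 2 M) (χ ψ : IrrCharacter Spor.M22) :
    SameBlock M (χ : Spor.M22 → ℂ) (ψ : Spor.M22 → ℂ) :=
  same_of_con hM conM22 (fun χ => Or.inl fun h => defM22 χ ((pow_dvd_pow 2 ((Nat.prime_two.pow_dvd_iff_le_factorization
    Nat.card_pos.ne' (k := 7)).1 (by rw [Mathieu.card_M22]; norm_num))).trans h)) χ ψ

end CfsgLib.OneBlk
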