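import Mathlib
import Cfsg.Agent.Lib.OneBlk.Cstr
import Cfsg.Agent.Lib.ChTab.Rat
import Cfsg.Agent.Lib.ChTab.Int

/-!
`M24` and `M22` have no character of 2-defect zero, hence a single 2-block.
-/

set_option autoImplicit false

namespace CfsgLib.OneBlk

open Cfsg CfsgLib.M24E CfsgLib.Golay CfsgLib.Tuan CfsgLib.ChTab Subgroup Finset

/-- the element of `M24` with code `q` -/
noncomputable def el (q : ℕ) (h : isM q = true := by decide +kernel) : M24 := ⟨pm q, pm_mem h⟩

/-- the data of a class of elements of prime order `p` with centralizer order `c` -/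
noncomputable def chkC (q v vi r p m c : ℕ) : Bool :=
  and (and (isM r) (chkB v vi)) (and (and (powId (ap q) p) (not (isId (ap q))))
    (and (intw (ap r) (ap q) (itF (ap q) m))
      (Nat.beq (csearch vi (okI (ap v) (ap q) (ap q)) fun φ => intw φ (ap q) (ap q)) c)))

theorem cls {q v vi r p m c : ℕ} (hq : isM q = true) (hp : p.Prime) (h : chkC q v vi r p m c = true)
    (hm : ∀ k < p, k.Coprime p → ∃ j < p, m ^ j % p = k ∨ m ^ j % p = p - k) (i : ℕ) (hi : i * c = 244823040)
    (χ : IrrCharacter M24) : orderOf (el q hq) = p ∧ (centralizer ({el q hq} : Set M24)).index = i ∧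
      ∃ n : ℕ, ‖(χ : M24 → ℂ) (el q hq)‖ ^ 2 = n ∧ n % p = dg χ ^ 2 % p ∧ dg χ ^ 2 ∣ i ^ 2 * n := by
  simp only [chkC, Bool.and_eq_true, Bool.not_eq_true', beq_iff'] at h
  obtain ⟨⟨hr, hB⟩, ⟨h1, h2⟩, h3, h4⟩ := h
  have ho : orderOf (el q hq) = p := by rw [← Subgroup.orderOf_coe]; exact orderOf_pm hp hq h1 h2
  have hc : Nat.card (centralizer ({el q hq} : Set M24)) = c := by
    rw [card_subgroup_eq _ (P := fun g => g * pm q = pm q * g) fun g => by
      rw [mem_centralizer_singleton_iff, Subtype.ext_iff]; rfl,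
      card_of_search hB (sound_okI (chkB_lt hB) (pm_rp hq) (pm_rp hq) fun _ _ h => h)
        fun g _ φ hφ => hφ.intw_iff (pm_rp hq) (pm_rp hq), h4]
  have hi' : (centralizer ({el q hq} : Set M24)).index = i := by
    have := (centralizer ({el q hq} : Set M24)).index_mul_card
    rw [hc, card_M24, ← hi] at this
    exact Nat.eq_of_mul_eq_mul_right (Nat.pos_of_ne_zero (by rintro rfl; simp at hi)) this
  refine ⟨ho, hi', hi' ▸ (sr_of hp.one_lt ho (m := m) ?_ hm).exists_nat hp ho χ⟩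
  refine isConj_iff.2 ⟨el r hr, Subtype.ext ?_⟩
  exact mul_inv_eq_of_eq_mul (((pm_rp hr).intw_iff (pm_rp hq) ((pm_rp hq).pow m)).1 h3)

def qa : ℕ := 0xb82d5a4e5183dcd62d4941cc520c41
def qb : ℕ := 0xbd6939460f7358b525073148310416

theorem isM_qa : isM qa = true := by decide +kernel

theorem not_conj : ¬ IsConj (el qa isM_qa) (el qa isM_qa)⁻¹ := by
  have hb : isM qb = true := by decide +kernel
  have e : (pm qa)⁻¹ = pm qb :=
    inv_eq_of_mul_eq_one_right (((pm_rp isM_qa).mul (pm_rp hb)).isId_iff.1 (by decide +kernel))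
  intro h
  obtain ⟨c, hc⟩ := isConj_iff.1 h
  refine all_of_search chkB_id (P := fun g => g * pm qa = pm qb * g) (Q := fun _ => False)
    (sound_okI (chkB_lt chkB_id) (pm_rp isM_qa) (pm_rp hb) fun _ _ h => h)
    (good := fun φ => not (intw φ (ap qa) (ap qb))) (fun g _ hP φ hφ h => ?_) (by decide +kernel) c c.2 ?_
  · rw [(hφ.intw_iff (pm_rp isM_qa) (pm_rp hb)).2 hP] at h
    cases h
  · rw [← e]; exact eq_mul_of_mul_inv_eq (congrArg Subtype.val hc)

theorem dvd_of_two_pow {a b m d n : ℕ} (hd : 1024 ∣ d) (hm : Odd m) (h : d ^ 2 ∣ (2 ^ a * m) ^ 2 * n)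
    (hb : 2 * a + b = 20) : 2 ^ b ∣ n := by
  have h1 : 2 ^ (2 * a) * 2 ^ b ∣ 2 ^ (2 * a) * (m ^ 2 * n) := by
    rw [← pow_add, hb, ← mul_assoc, pow_mul', ← mul_pow]
    exact (pow_dvd_pow_of_dvd hd 2).trans h
  exact (Nat.Coprime.pow _ _ (Nat.coprime_two_left.2 hm)).dvd_of_dvd_mul_left
    (Nat.dvd_of_mul_dvd_mul_left (by positivity) h1)

theorem defM24 (χ : IrrCharacter M24) : ¬ 1024 ∣ dg χ := by
  intro hd
  obtain ⟨o3, i3, n3, e3, a3, b3⟩ := cls isM_q3b Nat.prime_three (v := idq) (vi := idq)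
    (r := 0x956d075d3434dac5aa283bca320440) (m := 2) (c := 504) (by decide +kernel) (by decide) 485760 rfl χ
  obtain ⟨o5, i5, n5, e5, a5, b5⟩ := cls (q := 0x22ead9b1c57dae11c907851268a840) (by decide +kernel) Nat.prime_five
    (v := 0x4408bbd86d3a69503cc59c5cc92841) (vi := 0x9c98d38cd651604a09d77a5158840b)
    (r := 0x8de6ea88877d1723311048cb66a820) (m := 2) (c := 60) (by decide +kernel) (by decide) 4080384 rfl χ
  obtain ⟨o11, i11, n11, e11, a11, -⟩ := cls (q := 0xba07225593008f68aa8f325c12b570) (by decide +kernel)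
    (by norm_num : Nat.Prime 11) (v := 0x5d6e8498b663e4753a83889a124e00) (vi := 0xac2c9134e1728afbae7464a2341880)
    (r := 0x55268481a72da0675d9522e320bc62) (m := 2) (c := 11) (by decide +kernel) (by decide) 22256640 rfl χ
  obtain ⟨o23, i23, n23, e23, a23, -⟩ := cls isM_qa (by norm_num : Nat.Prime 23) (v := idq) (vi := idq)
    (r := 0xbd6717b56939461b52507314831040) (m := 2) (c := 23) (by decide +kernel) (by decide +kernel) 10644480 rfl χ
  have c3 : 2 ^ 6 ∣ n3 := dvd_of_two_pow (a := 7) (m := 3795) hd (by decide) b3 rfl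
  have c5 : 2 ^ 4 ∣ n5 := dvd_of_two_pow (a := 8) (m := 15939) hd (by decide) b5 rfl
  have h := sum_le_card χ [1, el q3b isM_q3b, el 0x22ead9b1c57dae11c907851268a840, el 0xba07225593008f68aa8f325c12b570,
    el qa isM_qa, (el qa isM_qa)⁻¹] (by
      simp only [List.pairwise_cons, List.mem_cons, List.not_mem_nil, or_false, forall_eq_or_imp, forall_eq,
        List.Pairwise.nil, and_true, IsEmpty.forall_iff, implies_true, not_conj, not_false_eq_true]
      refine ⟨⟨?_, ?_, ?_, ?_, ?_⟩, ⟨?_, ?_, ?_, ?_⟩, ⟨?_, ?_, ?_⟩, ?_, ?_⟩ <;>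
        exact not_isConj_of_orderOf (by simp only [orderOf_one, orderOf_inv, o3, o5, o11, o23]; decide))
  have e1 : centralizer ({(el qa isM_qa)⁻¹} : Set M24) = centralizer {el qa isM_qa} := by
    ext g; simp only [mem_centralizer_singleton_iff]; exact Commute.inv_right_iff
  have e2 : centralizer ({1} : Set M24) = ⊤ := eq_top_iff.2 fun x _ => mem_centralizer_singleton_iff.2 (by simp)
  simp only [List.map_cons, List.map_nil, List.sum_cons, List.sum_nil, e1, e2, index_top, i3, i5, i11, i23,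
    Char.char_inv (Char.irr_isCharacter χ), RCLike.norm_conj, e3, e5, e11, e23, card_M24, ← dg_cast,
    Complex.norm_natCast] at h
  have h' : dg χ ^ 2 + (485760 * n3 + (4080384 * n5 + (22256640 * n11 + (10644480 * n23 + 10644480 * n23)))) ≤
      244823040 := by
    rw [Nat.cast_one, one_mul, add_zero] at h; exact_mod_cast h
  have h1 := dg_dvd χ
  have h2 := dg_pos χ
  rw [card_M24] at h1
  obtain ⟨k, hk⟩ := hd
  rw [hk] at h' h1 h2 a3 a5 a11 a23
  have h3 : k < 16 := by nlinarith [Nat.zero_le (485760 * n3 + (4080384 * n5 + (22256640 * n11 +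
    (10644480 * n23 + 10644480 * n23))))]
  interval_cases k <;> omega

theorem oneM24 {M : Ideal AlgInt} (hM : IsPModular 2 M) (χ ψ : IrrCharacter M24) :
    SameBlock M (χ : M24 → ℂ) (ψ : M24 → ℂ) :=
  same_of_con hM conM24 (fun χ => Or.inl fun h => defM24 χ ((pow_dvd_pow 2 ((Nat.prime_two.pow_dvd_iff_le_factorization
    Nat.card_pos.ne' (k := 10)).1 (by rw [card_M24]; norm_num))).trans h)) χ ψ

end CfsgLib.OneBlk
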